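import Groth.Agent.Fga.DVRGeom
import Groth.Agent.Ega1.IdealGen
import Groth.Agent.Dix.Cast2
import Groth.Prelude.Def_ModelsG

/-!
# A smooth proper model contains no exceptional curve of the first kind

* `genLocus_of_prime`: let `I` be an effective Cartier ideal on `X` over a discrete valuation ring, let `t` be the section
  of `idealMod I` given by a uniformizer.  At a point `x` of `V(I)` where the uniformizer is prime, `t` generates.
* `not_isGen_top_twist_one`: `O(1)` on the projective line has no global generator.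
* `not_isExcCurve`: no vertical prime divisor of a flat model is exceptional if the uniformizer is prime at
  the points of the divisor.
-/

set_option autoImplicit false
universe u

open CategoryTheory CategoryTheory.Limits AlgebraicGeometry Opposite TopologicalSpace
open Groth.Agent.Fdesc.LocGen Groth.Agent.PerfA.IdealModule

namespace Groth.Agent.Models.H61.ExcSmooth

open Groth.Agent.Fga

theorem not_isGen_top_twist_one (k : Type u) [Field k] (e : Γ(Twist.twistProjSpace 1 k 1, ⊤)) :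
    ¬ IsGen e := by
  intro he
  obtain ⟨T, hT1, hT2⟩ := Groth.Agent.Dix.Cast2.wp2_coords k
  obtain ⟨a, ha⟩ := he.exists_eq (T 0)
  obtain ⟨b, hb⟩ := he.exists_eq (T 1)
  have h1 : b • T 0 = a • T 1 := by
    rw [ha, hb, smul_smul, smul_smul, mul_comm]
  obtain ⟨hb0, ha0⟩ := hT2 b a h1
  have h2 : (1 : Γ(CohB1.ProjSpace 1 k, ⊤)) • T 0 = (0 : Γ(CohB1.ProjSpace 1 k, ⊤)) • T 1 := by
    rw [ha, ha0, zero_smul, smul_zero, zero_smul]
  have h3 := (hT2 _ _ h2).1
  exact (Groth.Agent.Dix.Cast2.wp2_isField k).exists_pair_ne.elim fun x hx => hx.elim fun y hxy =>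
    hxy (by rw [← one_mul x, ← one_mul y, h3, zero_mul, zero_mul])

section

variable {V : Type u} [CommRing V] [IsDomain V] [IsDiscreteValuationRing V]
  {Y : Scheme.{u}} (p : Y ⟶ Spec (CommRingCat.of V))

theorem notMem_basicOpen_of_appTop_eq_zero {E Y : Scheme.{u}} (ι : E ⟶ Y) (s : Γ(Y, ⊤)) (h0 : ι.appTop s = 0)
    (e : E) : ι e ∉ Y.basicOpen s := by
  intro h1
  have h2 : e ∈ ι ⁻¹ᵁ (Y.basicOpen s) := h1
  rw [Scheme.preimage_basicOpen] at h2
  have h3 : (ι.app ⊤) s = 0 := h0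
  rw [h3, Scheme.basicOpen_zero] at h2
  exact h2

theorem vertComp_appTop_scal (Γ : ArSurf.VertComp V (Over.mk p)) {ϖ : V} (hϖ : Irreducible ϖ) :
    Γ.ι.appTop (DVRGeom.scal p ϖ) = 0 := by
  have hw : Γ.ι ≫ p = Γ.curve.hom ≫ Spec.map (CommRingCat.ofHom (IsLocalRing.residue V)) := Γ.w
  have h1 : (Γ.ι ≫ p).appTop ((Scheme.ΓSpecIso (CommRingCat.of V)).inv ϖ) =
      Γ.ι.appTop (DVRGeom.scal p ϖ) := by
    rw [Scheme.Hom.comp_appTop]; rfl
  rw [← h1, hw, Scheme.Hom.comp_appTop]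
  have h2 := congr($(Scheme.ΓSpecIso_inv_naturality (CommRingCat.ofHom (IsLocalRing.residue V))) ϖ)
  have h3 : IsLocalRing.residue V ϖ = 0 := by
    rw [IsLocalRing.residue_eq_zero_iff]
    exact hϖ.1
  have h4 : (Spec.map (CommRingCat.ofHom (IsLocalRing.residue V))).appTop
      ((Scheme.ΓSpecIso (CommRingCat.of V)).inv ϖ) = 0 := by
    refine h2.symm.trans ?_
    change (Scheme.ΓSpecIso (CommRingCat.of (IsLocalRing.ResidueField V))).inv
      (IsLocalRing.residue V ϖ) = 0
    rw [h3, map_zero]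
  change Γ.curve.hom.appTop ((Spec.map (CommRingCat.ofHom (IsLocalRing.residue V))).appTop
      ((Scheme.ΓSpecIso (CommRingCat.of V)).inv ϖ)) = 0
  rw [h4, map_zero]

omit [IsDiscreteValuationRing V] in
/-- the germ of a nonzero scalar is a nonzerodivisor on a flat scheme -/
theorem ge_scal_mul_eq_zero [Flat p] {ϖ : V} (hϖ : ϖ ≠ 0) {y : Y} (c : Y.presheaf.stalk y)
    (hc : GenIso.ge (show y ∈ (⊤ : Y.Opens) from trivial) (DVRGeom.scal p ϖ) * c = 0) : c = 0 :=
  GenIso.ge_regular (fun U a b hab => DVRGeom.ores_tr_injective p hϖ U a b hab) c hc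

theorem exists_isGen_of_prime [Flat p] {ϖ : V} (hϖ : ϖ ≠ 0) {I : Y.IdealSheafData}
    (hI : BlowUp.IsEffCartierIdeal I) (t : Γ(ClSub.idealMod I, ⊤)) (ht : val I t = DVRGeom.scal p ϖ)
    {y : Y} (hpr : (Ideal.span {GenIso.ge (show y ∈ (⊤ : Y.Opens) from trivial) (DVRGeom.scal p ϖ)}).IsPrime)
    (hy : ∀ (U : Y.affineOpens) (hU : y ∈ U.1) (f : Γ(Y, U.1)), f ∈ I.ideal U → ¬ IsUnit (GenIso.ge hU f)) :
    ∃ (W : Y.Opens) (h : W ≤ ⊤), y ∈ W ∧ IsGen (res (ClSub.idealMod I) h t) := by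
  obtain ⟨U, hyU, f, hf, hIf⟩ := hI y
  have h1 : ores (le_top : U.1 ≤ ⊤) (DVRGeom.scal p ϖ) ∈ I.ideal U := by
    rw [← ht, ← Groth.Agent.Ega1.IdealGen.val_res']
    exact val_mem I U _
  rw [hIf] at h1
  obtain ⟨v, hv⟩ := Ideal.mem_span_singleton'.mp h1
  -- germs
  set g := GenIso.ge (show y ∈ (⊤ : Y.Opens) from trivial) (DVRGeom.scal p ϖ) with hg
  have h2 : GenIso.ge hyU v * GenIso.ge hyU f = g := by
    rw [← map_mul, hv, GenIso.ge_ores]
  have hgmem : GenIso.ge hyU v * GenIso.ge hyU f ∈ Ideal.span {g} := by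
    rw [h2]; exact Ideal.mem_span_singleton_self g
  have hunit : IsUnit (GenIso.ge hyU v) := by
    rcases hpr.mem_or_mem hgmem with h3 | h3
    · exfalso
      refine hy U hyU f (by rw [hIf]; exact Ideal.mem_span_singleton_self f) ?_
      obtain ⟨c, hc⟩ := Ideal.mem_span_singleton'.mp h3
      have h4 : g * (c * GenIso.ge hyU f - 1) = 0 := by
        rw [mul_sub, mul_one, ← mul_assoc, mul_comm g c, hc, h2, sub_self]
      have h5 := ge_scal_mul_eq_zero p hϖ _ h4
      exact IsUnit.of_mul_eq_one_right _ (sub_eq_zero.mp h5)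
    · obtain ⟨c, hc⟩ := Ideal.mem_span_singleton'.mp h3
      have h4 : g * (c * GenIso.ge hyU v - 1) = 0 := by
        have : g * (c * GenIso.ge hyU v) = g := by
          calc g * (c * GenIso.ge hyU v) = (c * g) * GenIso.ge hyU v := by ring
            _ = GenIso.ge hyU f * GenIso.ge hyU v := by rw [hc]
            _ = g := by rw [mul_comm, h2]
        rw [mul_sub, mul_one, this, sub_self]
      have h5 := ge_scal_mul_eq_zero p hϖ _ h4
      exact IsUnit.of_mul_eq_one_right _ (sub_eq_zero.mp h5)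
  let B : Y.affineOpens := Y.affineBasicOpen v
  have hBU : B.1 ≤ U.1 := Y.basicOpen_le v
  have hvB : IsUnit (ores hBU v) := Y.toRingedSpace.isUnit_res_basicOpen v
  have hIB : I.ideal B = Ideal.span {ores hBU f} :=
    Groth.Agent.Ega1.IdealGen.ideal_eq_span_ores I (A := U) (B := B) hBU hIf
  have hϖB : ores (le_top : B.1 ≤ ⊤) (DVRGeom.scal p ϖ) = ores hBU v * ores hBU f := by
    rw [← map_mul, hv, ores_ores]
  have hval : val I (res (ClSub.idealMod I) (le_top : B.1 ≤ ⊤) t) = ores hBU v * ores hBU f := by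
    rw [Groth.Agent.Ega1.IdealGen.val_res', ht, hϖB]
  refine ⟨B.1, le_top, (Scheme.mem_basicOpen _ _ _ hyU).mpr hunit, ?_⟩
  apply Groth.Agent.Ega1.IdealGen.isGen_of_span I (A := B)
  · rw [hval, hIB]
    exact (Ideal.span_singleton_mul_left_unit hvB _).symm
  · rw [hval]
    exact mul_mem hvB.mem_nonZeroDivisors
      (Groth.Agent.Divis.EffCartier.res_mem_nonZeroDivisors U.2 B.2 hBU hf)

/-- A closed immersion `ι : E ⟶ Y` into a flat scheme over a discrete valuation ring whose image lies in the closed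
fibre is not an exceptional curve of the first kind when the uniformizer is prime in the local rings of `Y` at the
points of `E`. -/
theorem not_isExcCurve [Flat p] {ϖ : V} (hϖ : ϖ ≠ 0) {E : Scheme.{u}} (ι : E ⟶ Y) [IsClosedImmersion ι]
    (hpr : ∀ e : E, (Ideal.span {GenIso.ge (show ι e ∈ (⊤ : Y.Opens) from trivial)
      (DVRGeom.scal p ϖ)}).IsPrime)
    (h0 : ι.appTop (DVRGeom.scal p ϖ) = 0) : ¬ Models.IsExcCurve ι := by
  rintro ⟨hI, k, _, e, ⟨φ⟩⟩
  obtain ⟨t, ht⟩ := Groth.Agent.Ega1.IdealGen.exists_val_eq_of_forall ι.ker (DVRGeom.scal p ϖ) (V := ⊤) (by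
    intro A hA
    rw [Scheme.Hom.ker_apply, RingHom.mem_ker]
    have h1 := congr($(ι.naturality (homOfLE hA).op) (DVRGeom.scal p ϖ))
    refine h1.trans ?_
    change (E.presheaf.map _).hom (ι.appTop (DVRGeom.scal p ϖ)) = 0
    rw [h0, map_zero])
  have hgen : ∀ x : E, ι x ∈ CohB1.genLocus _ (homOf t) := by
    intro x
    obtain ⟨W, hW, hxW, hWgen⟩ := exists_isGen_of_prime p hϖ hI t ht (hpr x) (by
      intro U hU f hf hunit
      rw [Scheme.Hom.ker_apply, RingHom.mem_ker] at hf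
      have h1 : ι x ∈ Y.basicOpen f := (Scheme.mem_basicOpen _ _ _ hU).mpr hunit
      have h2 : x ∈ ι ⁻¹ᵁ (Y.basicOpen f) := h1
      rw [Scheme.preimage_basicOpen] at h2
      have h3 : (ι.app U.1) f = 0 := hf
      rw [h3, Scheme.basicOpen_zero] at h2
      exact h2)
    rw [mem_genLocus_iff]
    exact ⟨W, hxW, by rw [sec_homOf]; exact hWgen⟩
  have h1 := (isGen_sec_genLocus (homOf t)).pullSec (e.hom ≫ ι)
  have htop : (e.hom ≫ ι) ⁻¹ᵁ (CohB1.genLocus _ (homOf t)) = ⊤ := by
    rw [eq_top_iff]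
    intro x _
    exact hgen (e.hom x)
  have h2 := (isGen_congr htop.symm _).mpr h1
  exact not_isGen_top_twist_one k _ (h2.app φ.hom)

end

end Groth.Agent.Models.H61.ExcSmooth
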